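/-
The centraliser of a transvection of the special linear group of degree five over the field of two elements has at most
21504 elements; its action on the vectors, written in binary (helper16).
-/
import Mathlib

set_option autoImplicit false
set_option maxRecDepth 100000

namespace Cfsg.Agent.Lib.ToddCox.HeCent

abbrev SL5 : Type := Matrix.SpecialLinearGroup (Fin 5) (ZMod 2)

/-- The elementary matrices. -/
def EE (i j : Fin 5) (h : i ≠ j) : SL5 := ⟨Matrix.transvection i j 1, Matrix.det_transvection_of_ne i j h 1⟩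

def s0 : SL5 := EE 0 1 (by decide)

abbrev Cs : Subgroup SL5 := Subgroup.centralizer ({s0} : Set SL5)

theorem comm_entries {M : Matrix (Fin 5) (Fin 5) (ZMod 2)}
    (h : M * Matrix.transvection 0 1 1 = Matrix.transvection 0 1 1 * M) (a b : Fin 5) :
    (M * Matrix.single (0 : Fin 5) (1 : Fin 5) (1 : ZMod 2)) a b = (Matrix.single (0 : Fin 5) (1 : Fin 5) (1 : ZMod 2) * M) a b := by
  have h1 : M * Matrix.single (0 : Fin 5) (1 : Fin 5) (1 : ZMod 2) = Matrix.single (0 : Fin 5) (1 : Fin 5) (1 : ZMod 2) * M := by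
    unfold Matrix.transvection at h
    rw [mul_add, add_mul, mul_one, one_mul] at h
    exact add_left_cancel h
  rw [h1]

theorem col0 {g : SL5} (hg : g ∈ Cs) (a : Fin 5) (ha : a ≠ 0) : g.1 a 0 = 0 := by
  have h0 : g * s0 = s0 * g := Subgroup.mem_centralizer_singleton_iff.mp hg
  have h1 : g.1 * Matrix.transvection 0 1 1 = Matrix.transvection 0 1 1 * g.1 := congrArg Subtype.val h0
  have h2 := comm_entries h1 a 1
  rw [Matrix.mul_single_apply_same, Matrix.single_mul_apply_of_ne _ _ _ _ _ ha] at h2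
  simpa using h2

theorem row1 {g : SL5} (hg : g ∈ Cs) (b : Fin 5) (hb : b ≠ 1) : g.1 1 b = 0 := by
  have h0 : g * s0 = s0 * g := Subgroup.mem_centralizer_singleton_iff.mp hg
  have h1 : g.1 * Matrix.transvection 0 1 1 = Matrix.transvection 0 1 1 * g.1 := congrArg Subtype.val h0
  have h2 := comm_entries h1 0 b
  rw [Matrix.mul_single_apply_of_ne _ _ _ _ _ hb, Matrix.single_mul_apply_same] at h2
  simpa using h2.symm

theorem diag_eq {g : SL5} (hg : g ∈ Cs) : g.1 0 0 = g.1 1 1 := by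
  have h0 : g * s0 = s0 * g := Subgroup.mem_centralizer_singleton_iff.mp hg
  have h1 : g.1 * Matrix.transvection 0 1 1 = Matrix.transvection 0 1 1 * g.1 := congrArg Subtype.val h0
  have h2 := comm_entries h1 0 1
  rw [Matrix.mul_single_apply_same, Matrix.single_mul_apply_same] at h2
  simpa using h2

theorem zmod2_eq_one : ∀ x : ZMod 2, x ≠ 0 → x = 1 := by decide

theorem diag0 {g : SL5} (hg : g ∈ Cs) : g.1 0 0 = 1 := by
  have hi : g⁻¹ ∈ Cs := Subgroup.inv_mem _ hg
  have h1 : (g⁻¹ * g).1 0 0 = 1 := by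
    rw [inv_mul_cancel]
    simp
  have h2 : (g⁻¹ * g).1 0 0 = (g⁻¹).1 0 0 * g.1 0 0 := by
    show ((g⁻¹).1 * g.1) 0 0 = _
    rw [Matrix.mul_apply, Fin.sum_univ_five, col0 hg 1 (by decide), col0 hg 2 (by decide), col0 hg 3 (by decide),
      col0 hg 4 (by decide)]
    simp
  apply zmod2_eq_one
  intro h0
  rw [h2, h0, mul_zero] at h1
  exact zero_ne_one h1

theorem diag1 {g : SL5} (hg : g ∈ Cs) : g.1 1 1 = 1 := by
  rw [← diag_eq hg]
  exact diag0 hg

/-- The block of a matrix in the centraliser. -/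
def bl (g : SL5) : Matrix (Fin 3) (Fin 3) (ZMod 2) := fun i j => g.1 i.succ.succ j.succ.succ

theorem bl_mul {g h : SL5} (hg : g ∈ Cs) (hh : h ∈ Cs) : bl (g * h) = bl g * bl h := by
  ext i j
  show (g.1 * h.1) i.succ.succ j.succ.succ = _
  have e1 : h.1 (Fin.succ 0) j.succ.succ = 0 := row1 hh j.succ.succ (by
    intro h'
    have := Fin.succ_inj.mp (show (j.succ).succ = Fin.succ 0 from h')
    exact Fin.succ_ne_zero _ this)
  rw [Matrix.mul_apply, Fin.sum_univ_succ, Fin.sum_univ_succ, col0 hg _ (Fin.succ_ne_zero _), e1]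
  simp only [zero_mul, mul_zero, zero_add]
  rw [Matrix.mul_apply]
  rfl

theorem bl_one : bl 1 = 1 := by
  ext i j
  show (1 : Matrix (Fin 5) (Fin 5) (ZMod 2)) i.succ.succ j.succ.succ = _
  simp [Matrix.one_apply]

/-- The block as an element of the general linear group. -/
def blG (g : Cs) : GL (Fin 3) (ZMod 2) :=
  ⟨bl g.1, bl (g.1)⁻¹, by
    rw [← bl_mul g.2 (Subgroup.inv_mem _ g.2), mul_inv_cancel, bl_one], by
    rw [← bl_mul (Subgroup.inv_mem _ g.2) g.2, inv_mul_cancel, bl_one]⟩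

/-- The remaining entries. -/
def bits (g : Cs) : Fin 7 → ZMod 2 :=
  ![g.1.1 0 1, g.1.1 0 2, g.1.1 0 3, g.1.1 0 4, g.1.1 2 1, g.1.1 3 1, g.1.1 4 1]

theorem entries_eq {g g' : Cs} (hbl : bl g.1 = bl g'.1) (hbit : bits g = bits g') :
    ∀ i j, g.1.1 i j = g'.1.1 i j := by
  have c0 := col0 g.2
  have c0' := col0 g'.2
  have r1 := row1 g.2
  have r1' := row1 g'.2
  have d0 := diag0 g.2
  have d0' := diag0 g'.2
  have d1 := diag1 g.2
  have d1' := diag1 g'.2
  have h00 : g.1.1 0 0 = g'.1.1 0 0 := by rw [d0, d0']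
  have h01 : g.1.1 0 1 = g'.1.1 0 1 := congrFun hbit 0
  have h02 : g.1.1 0 2 = g'.1.1 0 2 := congrFun hbit 1
  have h03 : g.1.1 0 3 = g'.1.1 0 3 := congrFun hbit 2
  have h04 : g.1.1 0 4 = g'.1.1 0 4 := congrFun hbit 3
  have h10 : g.1.1 1 0 = g'.1.1 1 0 := by rw [c0 1 (by decide), c0' 1 (by decide)]
  have h11 : g.1.1 1 1 = g'.1.1 1 1 := by rw [d1, d1']
  have h12 : g.1.1 1 2 = g'.1.1 1 2 := by rw [r1 2 (by decide), r1' 2 (by decide)]
  have h13 : g.1.1 1 3 = g'.1.1 1 3 := by rw [r1 3 (by decide), r1' 3 (by decide)]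
  have h14 : g.1.1 1 4 = g'.1.1 1 4 := by rw [r1 4 (by decide), r1' 4 (by decide)]
  have h20 : g.1.1 2 0 = g'.1.1 2 0 := by rw [c0 2 (by decide), c0' 2 (by decide)]
  have h21 : g.1.1 2 1 = g'.1.1 2 1 := congrFun hbit 4
  have h22 : g.1.1 2 2 = g'.1.1 2 2 := congrFun (congrFun hbl 0) 0
  have h23 : g.1.1 2 3 = g'.1.1 2 3 := congrFun (congrFun hbl 0) 1
  have h24 : g.1.1 2 4 = g'.1.1 2 4 := congrFun (congrFun hbl 0) 2
  have h30 : g.1.1 3 0 = g'.1.1 3 0 := by rw [c0 3 (by decide), c0' 3 (by decide)]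
  have h31 : g.1.1 3 1 = g'.1.1 3 1 := congrFun hbit 5
  have h32 : g.1.1 3 2 = g'.1.1 3 2 := congrFun (congrFun hbl 1) 0
  have h33 : g.1.1 3 3 = g'.1.1 3 3 := congrFun (congrFun hbl 1) 1
  have h34 : g.1.1 3 4 = g'.1.1 3 4 := congrFun (congrFun hbl 1) 2
  have h40 : g.1.1 4 0 = g'.1.1 4 0 := by rw [c0 4 (by decide), c0' 4 (by decide)]
  have h41 : g.1.1 4 1 = g'.1.1 4 1 := congrFun hbit 6
  have h42 : g.1.1 4 2 = g'.1.1 4 2 := congrFun (congrFun hbl 2) 0
  have h43 : g.1.1 4 3 = g'.1.1 4 3 := congrFun (congrFun hbl 2) 1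
  have h44 : g.1.1 4 4 = g'.1.1 4 4 := congrFun (congrFun hbl 2) 2
  intro i j
  fin_cases i <;> fin_cases j
  all_goals first | exact h00 | exact h01 | exact h02 | exact h03 | exact h04 | exact h10 | exact h11 | exact h12 | exact h13 | exact h14 | exact h20 | exact h21 | exact h22 | exact h23 | exact h24 | exact h30 | exact h31 | exact h32 | exact h33 | exact h34 | exact h40 | exact h41 | exact h42 | exact h43 | exact h44

theorem card_Cs : Nat.card Cs ≤ 21504 := by
  have hinj : Function.Injective (fun g : Cs => (blG g, bits g)) := by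
    intro g g' h
    have h1 : blG g = blG g' := congrArg Prod.fst h
    have h2 : bits g = bits g' := congrArg Prod.snd h
    have h3 : bl g.1 = bl g'.1 := congrArg Units.val h1
    apply Subtype.ext
    apply Subtype.ext
    ext i j
    exact entries_eq h3 h2 i j
  have h := Nat.card_le_card_of_injective _ hinj
  refine le_trans h (le_of_eq ?_)
  rw [Nat.card_prod, Matrix.card_GL_field]
  simp [Fin.prod_univ_three, ZMod.card, Nat.card_eq_fintype_card]

/-! The action on the vectors. -/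

def dec5 (i : ℕ) : Fin 5 → ZMod 2 := fun j => bif i.testBit j then 1 else 0

def enc5 (v : Fin 5 → ZMod 2) : ℕ :=
  (v 0).val + 2 * ((v 1).val + 2 * ((v 2).val + 2 * ((v 3).val + 2 * (v 4).val)))

theorem enc5_lt : ∀ v, enc5 v < 32 := by decide +kernel
theorem dec5_enc5 : ∀ v, dec5 (enc5 v) = v := by decide +kernel
theorem enc5_dec5 : ∀ i : Fin 32, enc5 (dec5 i) = i := by decide +kernel

def cod : (Fin 5 → ZMod 2) ≃ Fin 32 where
  toFun v := ⟨enc5 v, enc5_lt v⟩
  invFun i := dec5 i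
  left_inv := dec5_enc5
  right_inv i := Fin.ext (enc5_dec5 i)

/-- The action on the vectors. -/
def vecPerm (g : SL5) : Equiv.Perm (Fin 5 → ZMod 2) where
  toFun v := g.1.mulVec v
  invFun v := (g⁻¹).1.mulVec v
  left_inv v := by
    show (g⁻¹).1.mulVec (g.1.mulVec v) = v
    rw [Matrix.mulVec_mulVec, ← Matrix.SpecialLinearGroup.coe_mul, inv_mul_cancel, Matrix.SpecialLinearGroup.coe_one,
      Matrix.one_mulVec]
  right_inv v := by
    show g.1.mulVec ((g⁻¹).1.mulVec v) = v
    rw [Matrix.mulVec_mulVec, ← Matrix.SpecialLinearGroup.coe_mul, mul_inv_cancel, Matrix.SpecialLinearGroup.coe_one,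
      Matrix.one_mulVec]

def vecHom : SL5 →* Equiv.Perm (Fin 5 → ZMod 2) where
  toFun := vecPerm
  map_one' := Equiv.ext fun v => by
    show (1 : SL5).1.mulVec v = v
    rw [Matrix.SpecialLinearGroup.coe_one, Matrix.one_mulVec]
  map_mul' g h := Equiv.ext fun v => by
    show (g * h).1.mulVec v = g.1.mulVec (h.1.mulVec v)
    rw [Matrix.SpecialLinearGroup.coe_mul, Matrix.mulVec_mulVec]

noncomputable def act : SL5 →* Equiv.Perm (Fin 32) := (cod.permCongrHom).toMonoidHom.comp vecHom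

theorem act_apply (g : SL5) (i : Fin 32) : ((act g i : Fin 32) : ℕ) = enc5 (g.1.mulVec (dec5 i)) := rfl

/-- Indices of a group with a map to a set separating conjugates. -/
theorem index_ge {G : Type*} [Group G] [Finite G] {n : ℕ} (t : Fin n → G) (z : G) {β : Type*} (F : G → β)
    (h : Function.Injective (fun i => F (t i * z * (t i)⁻¹))) : n ≤ (Subgroup.centralizer ({z} : Set G)).index := by
  have hinj : Function.Injective (fun i => (QuotientGroup.mk (t i) : G ⧸ Subgroup.centralizer ({z} : Set G))) := by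
    intro i j hij
    apply h
    have h1 : (t i)⁻¹ * t j ∈ Subgroup.centralizer ({z} : Set G) := QuotientGroup.eq.mp hij
    have h2 : ((t i)⁻¹ * t j) * z = z * ((t i)⁻¹ * t j) := Subgroup.mem_centralizer_singleton_iff.mp h1
    have h3 : t i * z * (t i)⁻¹ = t j * z * (t j)⁻¹ := by
      have h4 : t j * z = t i * z * (t i)⁻¹ * t j := by
        have := congrArg (fun x => t i * x) h2
        simpa [mul_assoc] using this
      rw [h4]
      group
    show F _ = F _
    rw [h3]
  have h2 := Nat.card_le_card_of_injective _ hinj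
  simpa [Subgroup.index] using h2

end Cfsg.Agent.Lib.ToddCox.HeCent
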