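/-
In the Held group the centraliser of the involution d is isomorphic to the centraliser of a transvection of the special linear
group of degree five over the field of two elements: both are the images of a group presented on five involutions (helper16).
-/
import Cfsg.Agent.Lib.ToddCox.HeCent.Transv
import Cfsg.Agent.Lib.ToddCox.HeCov.Base
import Cfsg.Agent.Lib.ToddCox.HCVO.Low
import Cfsg.Agent.Lib.ToddCox.HCGO.Low
import Cfsg.Agent.Lib.ToddCox.HCC.All
import Cfsg.Prelude.Def_Spor_He

set_option autoImplicit false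
set_option maxRecDepth 100000
set_option linter.constructorNameAsVariable false

namespace Cfsg.Agent.Lib.ToddCox.HeCent

open Cfsg.Agent.Lib.ToddCox.OPHC (Gen)

abbrev QP : Type := PresentedGroup HCT.rels
abbrev gP : ℕ → QP := genP HCT.rels HCT.LT
abbrev He' : Type := PresentedGroup He2058.rels
abbrev gH : ℕ → He' := HeO.gen

theorem card_QP : Nat.card QP = 21504 := by
  have h := HCT.index_eq
  have h2 : subG HCT.rels HCT.Sl = ⊥ := by
    unfold subG
    have h3 : {r | r ∈ HCT.Sl} = (∅ : Set (FreeGroup Gen)) := by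
      ext r
      simp [HCT.Sl]
    rw [h3, Subgroup.closure_empty, Subgroup.map_bot]
  rw [h2, Subgroup.index_bot] at h
  exact h

theorem gP_sg (x : Gen) : gP (HCT.sg x true) = PresentedGroup.of x := by
  cases x <;> rfl

theorem sg_true (x : Gen) (b : Bool) : HCT.sg x b = HCT.sg x true := by
  cases x <;> rfl

theorem rep_of_letters {n : ℕ} {tab : ℕ → ℕ → ℕ} (ρ : QP →* Equiv.Perm (Fin n))
    (h : ∀ (x : Gen) (i : Fin n), ((ρ (PresentedGroup.of x) i : Fin n) : ℕ) = tab (HCT.sg x true) i) :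
    ∀ r (i : Fin n), ((ρ (PresentedGroup.mk HCT.rels r) i : Fin n) : ℕ) = tabW tab (relW HCT.sg r) i := by
  have key : ∀ w : List ℕ, (∀ a ∈ w, ∃ x, a = HCT.sg x true) → ∀ i : Fin n,
      ((ρ (wordVal gP w) i : Fin n) : ℕ) = tabW tab w i := by
    intro w
    induction w with
    | nil =>
      intro _ i
      have h1 : wordVal gP [] = 1 := by simp [wordVal]
      rw [h1, map_one]
      rfl
    | cons a w ih =>
      intro hw i
      rw [wordVal_cons, map_mul, Equiv.Perm.mul_apply, ih (fun b hb => hw b (List.mem_cons_of_mem a hb)), tabW_cons]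
      obtain ⟨x, rfl⟩ := hw a List.mem_cons_self
      rw [gP_sg, h]
  intro r i
  rw [mk_eq_word_gen HCT.letters]
  apply key
  intro a ha
  simp only [relW, List.mem_reverse, List.mem_map] at ha
  obtain ⟨p, _, rfl⟩ := ha
  exact ⟨p.1, sg_true _ _⟩

/-! The matrices. -/

def T : Gen → SL5
  | .a => EE 2 3 (by decide)
  | .b => EE 3 4 (by decide)
  | .c => EE 4 2 (by decide)
  | .d => EE 0 2 (by decide)
  | .e => EE 2 1 (by decide)

theorem T_rels : ∀ r ∈ coxList OPHC.edges ++ OPHC.extra, FreeGroup.lift T r = 1 := by decide +kernel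

noncomputable def φ : QP →* SL5 := presMap OPHC.edges OPHC.extra T T_rels

theorem φ_of (x : Gen) : φ (PresentedGroup.of x) = T x := presMap_of _ _ _ _ x

theorem T_comm : ∀ x, T x * s0 = s0 * T x := by
  intro x
  cases x <;> decide +kernel

theorem φ_mem (q : QP) : φ q ∈ Cs := by
  have : φ.range ≤ Cs := by
    apply range_le_of_gens
    intro x
    rw [φ_of]
    exact Subgroup.mem_centralizer_singleton_iff.mpr (T_comm x)
  exact this ⟨q, rfl⟩

theorem T_tab : ∀ (x : Gen) (i : Fin 32), enc5 ((T x).1.mulVec (dec5 i)) = HCVT.tab (HCT.sg x true) i := by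
  intro x
  cases x <;> decide +kernel

theorem φ_inj : Function.Injective φ := by
  have hρ := rep_of_letters (tab := HCVT.tab) (act.comp φ) (fun x i => by
    show ((act (φ (PresentedGroup.of x)) i : Fin 32) : ℕ) = _
    rw [φ_of, act_apply]
    exact T_tab x i)
  have hlow := HCVO.low hρ
  have hc := card_and_faithful (by rw [card_QP]; norm_num) (le_of_eq card_QP) hlow (fun w _ => ⟨_, rfl⟩)
  intro a b hab
  apply hc.2
  show act (φ a) = act (φ b)
  rw [hab]

/-! The Held group. -/

def Embw (x : Gen) : List ℕ := HCGT.Emb.getD (HCT.sg x true) []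

theorem Emb_lt : ∀ x, ∀ a ∈ Embw x, a < 7 := by
  intro x
  cases x <;> decide +kernel

theorem Emb_let : ∀ r ∈ coxList OPHC.edges ++ OPHC.extra, ∀ a ∈ wsubst Embw He2058.inv r, a < 7 := by decide +kernel
theorem Emb_fix : ∀ r ∈ coxList OPHC.edges ++ OPHC.extra, ∀ b ∈ HeO.baseL, tabW He2058.tab (wsubst Embw He2058.inv r) b = b := by
  decide +kernel

theorem Emb_rel : ∀ r ∈ coxList OPHC.edges ++ OPHC.extra, FreeGroup.lift (fun a => wordVal gH (Embw a)) r = 1 := by
  intro r hr
  rw [lift_eq_wsubst gH He2058.inv He2058.letters.genInv]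
  exact HeCov.word_one (Emb_let r hr) (Emb_fix r hr)

noncomputable def γ : QP →* He' := presMap OPHC.edges OPHC.extra _ Emb_rel

theorem γ_of (x : Gen) : γ (PresentedGroup.of x) = wordVal gH (Embw x) := presMap_of _ _ _ _ x

def zz : He' := gH 3

theorem Emb_comm_tab : ∀ x, ∀ i ∈ List.range 2058, tabW He2058.tab (3 :: Embw x) i = tabW He2058.tab (Embw x ++ [3]) i := by
  intro x
  cases x <;> decide +kernel

theorem Emb_comm (x : Gen) : wordVal gH (Embw x) * zz = zz * wordVal gH (Embw x) := by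
  obtain ⟨ρ, hρ, hinj, _⟩ := HeCov.rep_faithful
  have h1 : wordVal gH (3 :: Embw x) = wordVal gH (Embw x) * zz := wordVal_cons _ _ _
  have h2 : wordVal gH (Embw x ++ [3]) = zz * wordVal gH (Embw x) := by
    rw [wordVal_append]
    simp [wordVal, zz]
  rw [← h1, ← h2]
  apply hinj
  ext i
  have hl : ∀ a ∈ 3 :: Embw x, a < 7 := by
    intro a ha
    rcases List.mem_cons.mp ha with rfl | ha
    · norm_num
    · exact Emb_lt x a ha
  have hl2 : ∀ a ∈ Embw x ++ [3], a < 7 := by
    intro a ha
    rcases List.mem_append.mp ha with ha | ha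
    · exact Emb_lt x a ha
    · rw [List.mem_singleton.mp ha]
      norm_num
  rw [rep_word hρ HeO.hLT hl, rep_word hρ HeO.hLT hl2]
  exact Emb_comm_tab x i (List.mem_range.mpr i.2)

abbrev Cz : Subgroup He' := Subgroup.centralizer ({zz} : Set He')

theorem γ_mem (q : QP) : γ q ∈ Cz := by
  have : γ.range ≤ Cz := by
    apply range_le_of_gens
    intro x
    rw [γ_of]
    exact Subgroup.mem_centralizer_singleton_iff.mpr (Emb_comm x)
  exact this ⟨q, rfl⟩

theorem γ_inj : Function.Injective γ := by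
  obtain ⟨ρ, hρH, hinj, _⟩ := HeCov.rep_faithful
  have hρ := rep_of_letters (tab := HCGT.tab) (ρ.comp γ) (fun x i => by
    show ((ρ (γ (PresentedGroup.of x)) i : Fin 2058) : ℕ) = _
    rw [γ_of]
    exact rep_word hρH HeO.hLT (Emb_lt x) i)
  have hlow := HCGO.low hρ
  have hc := card_and_faithful (by rw [card_QP]; norm_num) (le_of_eq card_QP) hlow (fun w _ => ⟨_, rfl⟩)
  intro a b hab
  apply hc.2
  show ρ (γ a) = ρ (γ b)
  rw [hab]

/-! The class of the involution. -/

theorem gH_mul_self (y : ℕ) (hy : y < 7) : gH y * gH y = 1 := by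
  have h1 : gH (He2058.inv y) = (gH y)⁻¹ := He2058.letters.genInv y
  have h2 : He2058.inv y = y := by
    interval_cases y <;> decide +kernel
  rw [h2] at h1
  have h3 : gH y * (gH y)⁻¹ = 1 := mul_inv_cancel _
  rwa [← h1] at h3

theorem wordVal_reverse {w : List ℕ} (hw : ∀ a ∈ w, a < 7) : wordVal gH w.reverse = (wordVal gH w)⁻¹ := by
  induction w with
  | nil => simp [wordVal]
  | cons a w ih =>
    have h1 : wordVal gH [a] = gH a := by simp [wordVal]
    have h2 : gH a = (gH a)⁻¹ := eq_inv_of_mul_eq_one_left (gH_mul_self a (hw a List.mem_cons_self))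
    have h3 : wordVal gH (a :: w) = wordVal gH w * gH a := wordVal_cons _ _ _
    rw [List.reverse_cons, wordVal_append, ih (fun b hb => hw b (List.mem_cons_of_mem a hb)), h1, h3, mul_inv_rev, ← h2]

theorem cw_val (c : ℕ) : wordVal gH (HCC.cw c) =
    (wordVal gH (HCC.wdec 21 c))⁻¹ * zz * wordVal gH (HCC.wdec 21 c) := by
  show wordVal gH (HCC.wdec 21 c ++ 3 :: (HCC.wdec 21 c).reverse) = _
  rw [wordVal_append, wordVal_cons, wordVal_reverse (HCC.wdec_lt 21 c)]
  rfl

theorem cw_lt (c : ℕ) : ∀ a ∈ HCC.cw c, a < 7 := by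
  intro a ha
  show a < 7
  have ha' : a ∈ HCC.wdec 21 c ++ 3 :: (HCC.wdec 21 c).reverse := ha
  rcases List.mem_append.mp ha' with h | h
  · exact HCC.wdec_lt 21 c a h
  · rcases List.mem_cons.mp h with rfl | h
    · norm_num
    · exact HCC.wdec_lt 21 c a (List.mem_reverse.mp h)

theorem index_Cz : 187425 ≤ Cz.index := by
  obtain ⟨ρ, hρ, hinj, hcard⟩ := HeCov.rep_faithful
  haveI : Finite He' := Nat.finite_of_card_ne_zero (by rw [hcard]; norm_num)
  let F : He' → ℕ := fun x =>
    Nat.add (ρ x ⟨533, by norm_num⟩ : Fin 2058).1 (Nat.mul 2058 (Nat.add (ρ x ⟨1773, by norm_num⟩ : Fin 2058).1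
      (Nat.mul 2058 (Nat.add (ρ x ⟨1128, by norm_num⟩ : Fin 2058).1 (Nat.mul 2058 (ρ x ⟨841, by norm_num⟩ : Fin 2058).1)))))
  have hF : ∀ c, F (wordVal gH (HCC.cw c)) = HCC.fp c := by
    intro c
    show Nat.add _ _ = Nat.add (tabW He2058.tab (HCC.cw c) 533) _
    rw [rep_word hρ HeO.hLT (cw_lt c), rep_word hρ HeO.hLT (cw_lt c), rep_word hρ HeO.hLT (cw_lt c),
      rep_word hρ HeO.hLT (cw_lt c)]
  let t : Fin HCC.allW.length → He' := fun i => (wordVal gH (HCC.wdec 21 (HCC.allW.get i)))⁻¹
  have hinj2 : Function.Injective (fun i => F (t i * zz * (t i)⁻¹)) := by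
    have h0 : ∀ i, F (t i * zz * (t i)⁻¹) = HCC.fp (HCC.allW.get i) := by
      intro i
      rw [← hF]
      congr 1
      rw [cw_val]
      show (wordVal gH _)⁻¹ * zz * ((wordVal gH _)⁻¹)⁻¹ = _
      rw [inv_inv]
    have hP : HCC.allW.Pairwise (fun a b => HCC.fp a < HCC.fp b) := List.pairwise_map.mp HCC.allW_good.1
    have hP2 := List.pairwise_iff_getElem.mp hP
    intro i j hij
    have h1 : HCC.fp (HCC.allW.get i) = HCC.fp (HCC.allW.get j) := by
      rw [← h0, ← h0]
      exact hij
    rcases lt_trichotomy i.1 j.1 with h | h | h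
    · have := hP2 i.1 j.1 i.2 j.2 h
      have h2 : HCC.fp HCC.allW[i.1] = HCC.fp HCC.allW[j.1] := h1
      omega
    · exact Fin.ext h
    · have := hP2 j.1 i.1 j.2 i.2 h
      have h2 : HCC.fp HCC.allW[i.1] = HCC.fp HCC.allW[j.1] := h1
      omega
  have h := index_ge t zz F hinj2
  rwa [HCC.allW_length] at h

theorem card_Cz : Nat.card Cz ≤ 21504 := by
  obtain ⟨ρ, hρ, hinj, hcard⟩ := HeCov.rep_faithful
  have h := Subgroup.card_mul_index Cz
  rw [hcard] at h
  have h2 := Nat.mul_le_mul_left (Nat.card Cz) index_Cz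
  rw [h] at h2
  have h3 : Nat.card Cz * 187425 ≤ 21504 * 187425 := by
    rw [show 21504 * 187425 = 4030387200 from by norm_num]
    exact h2
  exact Nat.le_of_mul_le_mul_right h3 (by norm_num)

theorem zz_order : orderOf zz = 2 := by
  apply orderOf_eq_prime
  · rw [pow_two]
    exact gH_mul_self 3 (by norm_num)
  · intro h
    have h1 : wordVal gH [3] = zz := by simp [wordVal, zz]
    have h2 : wordVal gH [3] ≠ 1 := HeCov.word_ne_one (by decide +kernel) (k := 2) (by norm_num) (by decide +kernel)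
    rw [h1] at h2
    exact h2 h

/-- The theorem. -/
theorem main_S2134 (s : SL5) (hs : (s : Matrix (Fin 5) (Fin 5) (ZMod 2)) = Matrix.transvection 0 1 1) :
    ∃ z : He', orderOf z = 2 ∧ Nonempty (↥(Subgroup.centralizer ({z} : Set He')) ≃* ↥(Subgroup.centralizer ({s} : Set SL5))) := by
  have hs0 : s = s0 := Subtype.ext hs
  subst hs0
  refine ⟨zz, zz_order, ?_⟩
  let f : QP →* Cs := φ.codRestrict _ φ_mem
  let g : QP →* Cz := γ.codRestrict _ γ_mem
  have hf : Function.Injective f := fun a b hab => φ_inj (congrArg Subtype.val hab)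
  have hg : Function.Injective g := fun a b hab => γ_inj (congrArg Subtype.val hab)
  haveI : Finite Cs := inferInstance
  have hfb : Function.Bijective f := hf.bijective_of_nat_card_le (by rw [card_QP]; exact card_Cs)
  haveI : Finite He' := Nat.finite_of_card_ne_zero (by
    obtain ⟨ρ, hρ, hinj, hcard⟩ := HeCov.rep_faithful
    rw [hcard]; norm_num)
  have hgb : Function.Bijective g := hg.bijective_of_nat_card_le (by rw [card_QP]; exact card_Cz)
  exact ⟨(MulEquiv.ofBijective g hgb).symm.trans (MulEquiv.ofBijective f hfb)⟩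

end Cfsg.Agent.Lib.ToddCox.HeCent
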